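import Cfsg.Agent.Lib.TC.Data.Fi23Ord.Arr
import Cfsg.Agent.Lib.TC.Data.Fi23Ord.U0
import Cfsg.Agent.Lib.TC.Data.Fi23Ord.U1
import Cfsg.Agent.Lib.TC.Data.Fi23Ord.U2
import Cfsg.Agent.Lib.TC.Data.Fi23Ord.U3
import Cfsg.Agent.Lib.TC.Data.Fi23Ord.U4
import Cfsg.Agent.Lib.TC.Data.Fi23Ord.U5
import Cfsg.Agent.Lib.TC.Data.Fi23Ord.U6

set_option autoImplicit false

namespace Cfsg.Agent.Lib.TC.Data.Fi23Ord

open Cfsg.Agent.Lib.TC

theorem doneU : Done Fu 31671 := by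
  have h0 := Done.zero Fu
  have h1 : Done Fu 4525 := Done.step h0 U0_ok rfl
  have h2 : Done Fu 9050 := Done.step h1 U1_ok rfl
  have h3 : Done Fu 13575 := Done.step h2 U2_ok rfl
  have h4 : Done Fu 18100 := Done.step h3 U3_ok rfl
  have h5 : Done Fu 22625 := Done.step h4 U4_ok rfl
  have h6 : Done Fu 27150 := Done.step h5 U5_ok rfl
  have h7 : Done Fu 31671 := Done.step h6 U6_ok rfl
  exact h7

end Cfsg.Agent.Lib.TC.Data.Fi23Ord
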